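import Mathlib
import Cfsg.Agent.Lib.Helper67.LSF.Defs

/-!
# Project LSF (S5286): package [FREE]

The kernel of the projection of `GG F` to `Perm S` is a free normal subgroup of index dividing
`(#S)!` (Nielsen–Schreier).
-/

set_option autoImplicit false

namespace Cfsg.Agent.Lib.Helper59.LSF

open Cfsg Cfsg.Agent.Lib.Helper67.LSF

universe u

theorem pkgFree : PkgFree.{u} := by
  intro Ω _ S _ F
  classical
  obtain ⟨π, hπ⟩ : ∃ π : GG F →* Equiv.Perm S, ∀ g : GG F, π g = (g : Ghat F).right :=
    ⟨(SemidirectProduct.rightHom).comp (GG F).subtype, fun g => rfl⟩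
  refine ⟨π.ker, inferInstance, ?_, ?_⟩
  · -- free: the kernel embeds into the free group
    have hr : ∀ g : π.ker, ((g : GG F) : Ghat F).right = 1 := by
      intro g
      rw [← hπ]
      exact g.2
    obtain ⟨f, hf⟩ : ∃ f : π.ker →* FreeGroup (X F), ∀ g : π.ker, f g = ((g : GG F) : Ghat F).left :=
      ⟨{ toFun := fun g => ((g : GG F) : Ghat F).left
         map_one' := rfl
         map_mul' := by
           intro g h
           show (((g : GG F) : Ghat F) * ((h : GG F) : Ghat F)).left = _
           rw [SemidirectProduct.mul_left, hr g, map_one]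
           rfl }, fun g => rfl⟩
    have hinj : Function.Injective f := by
      intro g h hgh
      rw [hf, hf] at hgh
      apply Subtype.ext
      apply Subtype.ext
      apply SemidirectProduct.ext
      · exact hgh
      · rw [hr g, hr h]
    exact IsFreeGroup.ofMulEquiv (MonoidHom.ofInjective hinj).symm
  · rw [Subgroup.index_ker]
    have h1 : Nat.card π.range ∣ Nat.card (Equiv.Perm S) := Subgroup.card_subgroup_dvd_card _
    rw [Nat.card_perm] at h1
    exact h1

end Cfsg.Agent.Lib.Helper59.LSF
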